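import Mathlib

/-!
The generalized dihedral group of `(ZMod 7)^k`, realised inside `Fin k → DihedralGroup 7`: all
components are rotations, or all are reflections.  Its element orders are `1, 2, 7`, and it has at
least `7 ^ k` elements.
-/

set_option autoImplicit false

namespace Cfsg.Agent.Lib.Helper21.GenDih

open DihedralGroup

/-- the generalized dihedral group of `(ZMod 7)^k` -/
def gd (k : ℕ) : Subgroup (Fin k → DihedralGroup 7) where
  carrier := {f | (∀ i, ∃ a, f i = r a) ∨ (∀ i, ∃ a, f i = sr a)}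
  one_mem' := Or.inl fun _ => ⟨0, rfl⟩
  mul_mem' := by
    rintro f g (hf | hf) (hg | hg)
    · left; intro i
      obtain ⟨a, ha⟩ := hf i
      obtain ⟨b, hb⟩ := hg i
      exact ⟨a + b, by rw [Pi.mul_apply, ha, hb, r_mul_r]⟩
    · right; intro i
      obtain ⟨a, ha⟩ := hf i
      obtain ⟨b, hb⟩ := hg i
      exact ⟨b - a, by rw [Pi.mul_apply, ha, hb, r_mul_sr]⟩
    · right; intro i
      obtain ⟨a, ha⟩ := hf i
      obtain ⟨b, hb⟩ := hg i
      exact ⟨a + b, by rw [Pi.mul_apply, ha, hb, sr_mul_r]⟩
    · left; intro i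
      obtain ⟨a, ha⟩ := hf i
      obtain ⟨b, hb⟩ := hg i
      exact ⟨b - a, by rw [Pi.mul_apply, ha, hb, sr_mul_sr]⟩
  inv_mem' := by
    rintro f (hf | hf)
    · left; intro i
      obtain ⟨a, ha⟩ := hf i
      exact ⟨-a, by rw [Pi.inv_apply, ha, inv_r]⟩
    · right; intro i
      obtain ⟨a, ha⟩ := hf i
      exact ⟨a, by rw [Pi.inv_apply, ha, inv_sr]⟩

instance (k : ℕ) : Finite (gd k) := inferInstance

theorem pow_cases {k : ℕ} (x : gd k) : x ^ 7 = 1 ∨ x ^ 2 = 1 := by
  rcases x.2 with h | h
  · left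
    ext i
    obtain ⟨a, ha⟩ := h i
    simp only [Subgroup.coe_pow, Pi.pow_apply, ha, r_pow, Subgroup.coe_one, Pi.one_apply, one_def]
    have : ((7 : ℕ) : ZMod 7) = 0 := by decide
    rw [this, mul_zero]
  · right
    ext i
    obtain ⟨a, ha⟩ := h i
    simp only [Subgroup.coe_pow, Pi.pow_apply, ha, Subgroup.coe_one, Pi.one_apply]
    rw [pow_two, sr_mul_self]

theorem spectrum (k : ℕ) : Set.range (orderOf : gd (k + 1) → ℕ) = (({1, 2, 7} : Finset ℕ) : Set ℕ) := by
  apply Set.eq_of_subset_of_subset
  · rintro _ ⟨x, rfl⟩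
    rcases pow_cases x with h | h
    · have := (Nat.dvd_prime (by norm_num : Nat.Prime 7)).1 (orderOf_dvd_of_pow_eq_one h)
      rcases this with e | e <;> simp [e]
    · have := (Nat.dvd_prime (by norm_num : Nat.Prime 2)).1 (orderOf_dvd_of_pow_eq_one h)
      rcases this with e | e <;> simp [e]
  · intro n hn
    simp only [Finset.coe_insert, Finset.coe_singleton, Set.mem_insert_iff,
      Set.mem_singleton_iff] at hn
    rcases hn with rfl | rfl | rfl
    · exact ⟨1, orderOf_one⟩
    · refine ⟨⟨fun _ => sr 0, Or.inr fun _ => ⟨0, rfl⟩⟩, ?_⟩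
      have : Fact (Nat.Prime 2) := ⟨by norm_num⟩
      refine orderOf_eq_prime ?_ ?_
      · ext i
        simp [pow_two]
      · intro e
        have := congrFun (congrArg Subtype.val e) 0
        simp only [Subgroup.coe_one, Pi.one_apply, one_def] at this
        exact absurd this (by decide)
    · refine ⟨⟨fun _ => r 1, Or.inl fun _ => ⟨1, rfl⟩⟩, ?_⟩
      have : Fact (Nat.Prime 7) := ⟨by norm_num⟩
      refine orderOf_eq_prime ?_ ?_
      · ext i
        simp only [Subgroup.coe_pow, Pi.pow_apply, r_pow, Subgroup.coe_one, Pi.one_apply, one_def]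
        congr 1
      · intro e
        have := congrFun (congrArg Subtype.val e) 0
        simp only [Subgroup.coe_one, Pi.one_apply, one_def] at this
        exact absurd this (by decide)

theorem card_ge (k : ℕ) : 7 ^ k ≤ Nat.card (gd k) := by
  have : Function.Injective (fun a : Fin k → ZMod 7 =>
      (⟨fun i => r (a i), Or.inl fun i => ⟨a i, rfl⟩⟩ : gd k)) := by
    intro a b h
    funext i
    have := congrFun (congrArg Subtype.val h) i
    simpa using this
  have h2 := Nat.card_le_card_of_injective _ this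
  simpa [Nat.card_eq_fintype_card, ZMod.card] using h2

end Cfsg.Agent.Lib.Helper21.GenDih
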