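import Cfsg.Agent.Lib.Helper1.Coprime

set_option autoImplicit false
open Pointwise

namespace Cfsg.Agent.Lib.Helper21

open Subgroup Cfsg.Agent.Lib.Helper1

/-- Fixed point part of Glauberman's lemma, relative to a normal subgroup `N` of `G`: only the index
`|G : N|` is assumed coprime to `|S|`. -/
theorem coprime_exists_conj_le_rel {Γ : Type*} [Group Γ] [Finite Γ] (G S N R : Subgroup Γ)
    (hSG : ∀ s ∈ S, ∀ g ∈ G, s * g * s⁻¹ ∈ G) (hNG : N ≤ G)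
    [hnG : (N.subgroupOf G).Normal] (hSN : ∀ s ∈ S, ∀ n ∈ N, s * n * s⁻¹ ∈ N)
    (hNR : N ≤ R) (hcop : (N.relIndex G).Coprime (Nat.card S))
    (hsolv : Group.IsSolvable S ∨ Group.IsSolvable (G ⧸ N.subgroupOf G))
    (hR : ∀ s ∈ S, ∃ k ∈ G, k * s ∈ R) :
    ∃ k ∈ G, ∀ s ∈ S, k * s * k⁻¹ ∈ R := by
  have hGN : ∀ g ∈ G, ∀ n ∈ N, g * n * g⁻¹ ∈ N := by
    intro g hg n hn
    exact hnG.conj_mem ⟨n, hNG hn⟩ hn ⟨g, hg⟩
  obtain ⟨Y, hY⟩ : ∃ Y : Subgroup Γ, Y = normalizer (N : Set Γ) := ⟨_, rfl⟩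
  have hGY : G ≤ Y := hY ▸ le_normalizer_of_forall_conj_mem hGN
  have hSY : S ≤ Y := hY ▸ le_normalizer_of_forall_conj_mem hSN
  have hNY : N ≤ Y := hNG.trans hGY
  haveI hn : (N.subgroupOf Y).Normal := by
    rw [hY]; exact normal_in_normalizer
  let f : Y →* Y ⧸ N.subgroupOf Y := QuotientGroup.mk' (N.subgroupOf Y)
  have hker : f.ker = N.subgroupOf Y := QuotientGroup.ker_mk' _
  have hcardK : Nat.card ((G.subgroupOf Y).map f) = N.relIndex G := by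
    rw [← relIndex_ker, hker, relIndex_subgroupOf hGY]
  have hcardA : Nat.card ((S.subgroupOf Y).map f) ∣ Nat.card S :=
    (card_map_dvd _ f).trans (card_subgroupOf_dvd S Y)
  have hsolv' : Group.IsSolvable ((G.subgroupOf Y).map f) ∨ Group.IsSolvable ((S.subgroupOf Y).map f) := by
    rcases hsolv with h | h
    · exact Or.inr (solvable_map f (solvable_subgroupOf Y h))
    · left
      let φ : G →* (G.subgroupOf Y).map f :=
        { toFun := fun g => ⟨f ⟨g, hGY g.2⟩, ⟨⟨g, hGY g.2⟩, g.2, rfl⟩⟩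
          map_one' := Subtype.ext (map_one f)
          map_mul' := fun a b => Subtype.ext (map_mul f ⟨a, hGY a.2⟩ ⟨b, hGY b.2⟩) }
      have hφ : N.subgroupOf G ≤ φ.ker := by
        intro n hn
        rw [MonoidHom.mem_ker]
        apply Subtype.ext
        change f ⟨n, hGY n.2⟩ = 1
        rw [← MonoidHom.mem_ker, hker]
        exact hn
      refine Group.isSolvable_of_surjective (f := QuotientGroup.lift (N.subgroupOf G) φ hφ) ?_
      rintro ⟨_, ⟨y, hy, rfl⟩⟩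
      exact ⟨QuotientGroup.mk ⟨y, hy⟩, rfl⟩
  obtain ⟨k, hk, hkA⟩ := coprime_exists_conj_le ((G.subgroupOf Y).map f) ((S.subgroupOf Y).map f)
    ((R.subgroupOf Y).map f) (by
      apply le_normalizer_of_forall_conj_mem
      rintro _ ⟨s, hs, rfl⟩ _ ⟨g, hg, rfl⟩
      exact ⟨s * g * s⁻¹, hSG s hs g hg, by simp⟩)
    (by rw [hcardK]; exact Nat.Coprime.of_dvd_right hcardA hcop) hsolv' (by
      rintro _ ⟨s, hs, rfl⟩
      obtain ⟨k, hk, hks⟩ := hR s hs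
      exact ⟨f ⟨k, hGY hk⟩, ⟨⟨k, hGY hk⟩, hk, rfl⟩, ⟨⟨k, hGY hk⟩ * s, hks, by simp⟩⟩)
  obtain ⟨k, hkG, rfl⟩ := hk
  refine ⟨k, hkG, ?_⟩
  intro s hs
  have h1 : f k * f ⟨s, hSY hs⟩ * (f k)⁻¹ ∈ (R.subgroupOf Y).map f :=
    hkA (conj_mem_conj_smul ⟨⟨s, hSY hs⟩, hs, rfl⟩)
  obtain ⟨r, hr, hrk⟩ := h1
  have h2 : r⁻¹ * (k * ⟨s, hSY hs⟩ * k⁻¹) ∈ f.ker := by
    rw [MonoidHom.mem_ker, map_mul, map_inv, hrk, map_mul, map_mul, map_inv]
    group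
  rw [hker] at h2
  have h3 : ((r : Γ))⁻¹ * ((k : Γ) * s * (k : Γ)⁻¹) ∈ N := h2
  have h4 : (k : Γ) * s * (k : Γ)⁻¹ = (r : Γ) * ((r : Γ)⁻¹ * ((k : Γ) * s * (k : Γ)⁻¹)) := by group
  rw [h4]
  exact R.mul_mem hr (hNR h3)

end Cfsg.Agent.Lib.Helper21
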