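import Mathlib
import Cfsg.Agent.Lib.Helper2.CharOps
import Cfsg.Agent.Lib.Helper1.PGrp

set_option autoImplicit false

namespace Cfsg.Agent.Lib.Helper21

open MulAction
open scoped commutatorElement

/-- Sum of an invariant integer function over a finite set with a group action. -/
theorem dvd_sum_of_invariant {H X : Type*} [Group H] [MulAction H X] [Fintype X] (f : X → ℤ)
    (c : ℤ) (hf : ∀ (h : H) (x : X), f (h • x) = f x)
    (hc : ∀ x : X, c ∣ (Nat.card (orbit H x) : ℤ) * f x) : c ∣ ∑ x : X, f x := by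
  classical
  rw [← Finset.sum_fiberwise Finset.univ (fun x : X => (Quotient.mk'' x : orbitRel.Quotient H X)) f]
  apply Finset.dvd_sum
  intro q _
  obtain ⟨x₀, rfl⟩ := Quotient.mk''_surjective q
  have h1 : ∀ x ∈ Finset.univ.filter
      (fun x : X => (Quotient.mk'' x : orbitRel.Quotient H X) = Quotient.mk'' x₀), f x = f x₀ := by
    intro x hx
    rw [Finset.mem_filter] at hx
    have h2 : x ∈ orbit H x₀ := by
      have := Quotient.eq''.mp hx.2
      exact this
    obtain ⟨h, rfl⟩ := h2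
    exact hf h x₀
  rw [Finset.sum_congr rfl h1, Finset.sum_const, nsmul_eq_mul]
  have h3 : (Finset.univ.filter
      (fun x : X => (Quotient.mk'' x : orbitRel.Quotient H X) = Quotient.mk'' x₀)).card
      = Nat.card (orbit H x₀) := by
    rw [← Nat.card_eq_finsetCard]
    apply Nat.card_congr
    refine Equiv.subtypeEquivRight ?_
    intro x
    rw [Finset.mem_filter]
    constructor
    · intro hx
      exact Quotient.eq''.mp hx.2
    · intro hx
      exact ⟨Finset.mem_univ _, Quotient.eq''.mpr hx⟩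
  rw [h3]
  exact hc x₀

/-- The complex value of a sign character. -/
def sg {G : Type*} [Group G] (l : G →* ℤˣ) (g : G) : ℂ := (((l g : ℤˣ) : ℤ) : ℂ)

theorem sg_eq {G : Type*} [Group G] (l : G →* ℤˣ) (g : G) : sg l g = 1 ∨ sg l g = -1 := by
  unfold sg
  rcases Int.units_eq_one_or (l g) with h | h <;> simp [h]

theorem sg_mul_self {G : Type*} [Group G] (l : G →* ℤˣ) (g : G) : sg l g * sg l g = 1 := by
  rcases sg_eq l g with h | h <;> simp [h]

theorem sg_one_hom {G : Type*} [Group G] (g : G) : sg (1 : G →* ℤˣ) g = 1 := by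
  simp [sg]

theorem sg_mul_hom {G : Type*} [Group G] (l m : G →* ℤˣ) (g : G) :
    sg (l * m) g = sg l g * sg m g := by
  simp [sg]

theorem sg_map_one {G : Type*} [Group G] (l : G →* ℤˣ) : sg l 1 = 1 := by
  simp [sg]

theorem sg_map_mul_self {G : Type*} [Group G] (l : G →* ℤˣ) (g : G) : sg l (g * g) = 1 := by
  have : sg l (g * g) = sg l g * sg l g := by
    unfold sg
    rw [map_mul, Units.val_mul, Int.cast_mul]
  rw [this, sg_mul_self]

theorem sg_conj {G : Type*} [Group G] (l : G →* ℤˣ) (g : G) :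
    (starRingEnd ℂ) (sg l g) = sg l g := by
  rcases sg_eq l g with h | h <;> simp [h]

/-- The sign character as a homomorphism to `ℂˣ`. -/
def sgHom {G : Type*} [Group G] (l : G →* ℤˣ) : G →* ℂˣ :=
  (Units.map (Int.castRingHom ℂ : ℤ →* ℂ)).comp l

theorem sgHom_apply {G : Type*} [Group G] (l : G →* ℤˣ) (g : G) :
    ((sgHom l g : ℂˣ) : ℂ) = sg l g := rfl

theorem isIrr_twist {G : Type*} [Group G] [Fintype G] (l : G →* ℤˣ) {χ : G → ℂ}
    (hχ : Cfsg.IsIrrCharacter G χ) : Cfsg.IsIrrCharacter G (fun g => sg l g * χ g) := by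
  classical
  have h1 : Cfsg.IsCharacter G (fun g => sg l g * χ g) :=
    Cfsg.Agent.Lib.Helper2.IsCharacter.mul
      (Cfsg.Agent.Lib.Helper2.IsIrrCharacter.isCharacter
        (Cfsg.Agent.Lib.Helper2.isIrrCharacter_of_hom (sgHom l)))
      (Cfsg.Agent.Lib.Helper2.IsIrrCharacter.isCharacter hχ)
  apply Cfsg.Agent.Lib.Helper2.isIrrCharacter_of_classInner_eq_one h1
  have h2 := Cfsg.Agent.Lib.Helper2.classInner_irr hχ hχ
  rw [if_pos rfl] at h2
  rw [← h2]
  unfold Cfsg.classInner
  congr 1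
  apply Finset.sum_congr rfl
  intro g _
  rw [map_mul, sg_conj]
  calc sg l g * χ g * (sg l g * (starRingEnd ℂ) (χ g))
      = (sg l g * sg l g) * (χ g * (starRingEnd ℂ) (χ g)) := by ring
    _ = χ g * (starRingEnd ℂ) (χ g) := by rw [sg_mul_self, one_mul]

/-- The action of sign characters on irreducible characters. -/
@[instance_reducible] noncomputable def twistAction (G : Type*) [Group G] [Fintype G] :
    MulAction (G →* ℤˣ) (Cfsg.IrrCharacter G) where
  smul l χ := ⟨fun g => sg l g * χ.1 g, isIrr_twist l χ.2⟩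
  one_smul χ := by
    apply Subtype.ext
    funext g
    change sg 1 g * χ.1 g = χ.1 g
    rw [sg_one_hom, one_mul]
  mul_smul l m χ := by
    apply Subtype.ext
    funext g
    change sg (l * m) g * χ.1 g = sg l g * (sg m g * χ.1 g)
    rw [sg_mul_hom, mul_assoc]

instance finite_signHom (G : Type*) [Group G] [Finite G] : Finite (G →* ℤˣ) :=
  Finite.of_injective (fun l : G →* ℤˣ => (l : G → ℤˣ)) DFunLike.coe_injective

theorem isPGroup_signHom (G : Type*) [Group G] : IsPGroup 2 (G →* ℤˣ) := by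
  intro l
  refine ⟨1, ?_⟩
  ext g
  simp [pow_two]

theorem hasEnough_int_two : HasEnoughRootsOfUnity ℤ 2 where
  prim := ⟨-1, by
    rw [IsPrimitiveRoot.iff_def]
    refine ⟨by norm_num, ?_⟩
    intro l hl
    rcases Nat.even_or_odd l with h | h
    · exact h.two_dvd
    · rw [h.neg_one_pow] at hl
      norm_num at hl⟩
  cyc := inferInstance

theorem card_quotient_frattini_le {G : Type*} [Group G] [Finite G] (hG : IsPGroup 2 G) :
    Nat.card (G ⧸ frattini G) ≤ Nat.card (G →* ℤˣ) := by
  have : Fact (Nat.Prime 2) := ⟨Nat.prime_two⟩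
  obtain ⟨h1, h2⟩ := Cfsg.Agent.Lib.Helper1.pgroup_frattini hG
  letI : CommGroup (G ⧸ frattini G) :=
    { (inferInstance : Group (G ⧸ frattini G)) with
      mul_comm := by
        intro a b
        obtain ⟨a, rfl⟩ := QuotientGroup.mk_surjective a
        obtain ⟨b, rfl⟩ := QuotientGroup.mk_surjective b
        rw [← QuotientGroup.mk_mul, ← QuotientGroup.mk_mul, QuotientGroup.eq]
        apply h1
        have : (a * b)⁻¹ * (b * a) = ⁅b⁻¹, a⁻¹⁆ := by
          simp [commutatorElement_def, mul_assoc]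
        rw [this]
        exact Subgroup.commutator_mem_commutator (Subgroup.mem_top _) (Subgroup.mem_top _) }
  have hexp : Monoid.exponent (G ⧸ frattini G) ∣ 2 := by
    apply Monoid.exponent_dvd_of_forall_pow_eq_one
    intro a
    obtain ⟨a, rfl⟩ := QuotientGroup.mk_surjective a
    rw [← QuotientGroup.mk_pow, QuotientGroup.eq_one_iff]
    exact h2 a
  haveI := hasEnough_int_two
  haveI : HasEnoughRootsOfUnity ℤ (Monoid.exponent (G ⧸ frattini G)) :=
    HasEnoughRootsOfUnity.of_dvd ℤ hexp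
  rw [← CommGroup.card_monoidHom_of_hasEnoughRootsOfUnity (G ⧸ frattini G) ℤ]
  apply Nat.card_le_card_of_injective
    (fun φ : (G ⧸ frattini G) →* ℤˣ => φ.comp (QuotientGroup.mk' (frattini G)))
  intro φ ψ h
  apply MonoidHom.ext
  intro a
  obtain ⟨a, rfl⟩ := QuotientGroup.mk_surjective a
  exact DFunLike.congr_fun h a

/-- The real value of a sign character. -/
def rg {G : Type*} [Group G] (l : G →* ℤˣ) (g : G) : ℝ := (((l g : ℤˣ) : ℤ) : ℝ)

theorem rg_mul {G : Type*} [Group G] (l : G →* ℤˣ) (g h : G) : rg l (g * h) = rg l g * rg l h := by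
  unfold rg
  rw [map_mul, Units.val_mul, Int.cast_mul]

theorem rg_mul_hom {G : Type*} [Group G] (l m : G →* ℤˣ) (g : G) :
    rg (l * m) g = rg l g * rg m g := by
  unfold rg
  rw [MonoidHom.mul_apply, Units.val_mul, Int.cast_mul]

theorem sum_rg {G : Type*} [Group G] [Fintype G] (l : G →* ℤˣ) [Decidable (l = 1)] :
    ∑ g : G, rg l g = if l = 1 then (Fintype.card G : ℝ) else 0 := by
  split_ifs with h
  · subst h
    simp [rg]
  · have : ∃ g₀, l g₀ ≠ 1 := by
      by_contra hcon
      push Not at hcon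
      exact h (MonoidHom.ext hcon)
    obtain ⟨g₀, hg₀⟩ := this
    have h1 : l g₀ = -1 := (Int.units_eq_one_or (l g₀)).resolve_left hg₀
    have h2 : ∑ g : G, rg l g = ∑ g : G, rg l (g₀ * g) :=
      (Equiv.sum_comp (Equiv.mulLeft g₀) (fun g => rg l g)).symm
    have h3 : ∑ g : G, rg l (g₀ * g) = - ∑ g : G, rg l g := by
      rw [← Finset.sum_neg_distrib]
      apply Finset.sum_congr rfl
      intro g _
      rw [rg_mul]
      have : rg l g₀ = -1 := by simp [rg, h1]
      rw [this]; ring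
    linarith

theorem card_le_sq_of_fix {G : Type*} [Group G] [Fintype G] {χ : G → ℂ}
    (hχ : Cfsg.IsIrrCharacter G χ) (St : Subgroup (G →* ℤˣ))
    (hSt : ∀ l ∈ St, ∀ g, sg l g * χ g = χ g) (n : ℝ) (hn : ∀ g, ‖χ g‖ ≤ n) :
    (Nat.card St : ℝ) ≤ n ^ 2 := by
  classical
  haveI : Fintype St := Fintype.ofFinite _
  have hGpos : (0 : ℝ) < Fintype.card G := by exact_mod_cast Fintype.card_pos
  -- (a)
  have ha : ∑ g : G, ‖χ g‖ ^ 2 = (Fintype.card G : ℝ) := by
    have h2 := Cfsg.Agent.Lib.Helper2.classInner_irr hχ hχ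
    rw [if_pos rfl] at h2
    unfold Cfsg.classInner at h2
    have h3 : ∑ g : G, χ g * (starRingEnd ℂ) (χ g) = ((∑ g : G, ‖χ g‖ ^ 2 : ℝ) : ℂ) := by
      push_cast
      apply Finset.sum_congr rfl
      intro g _
      rw [Complex.mul_conj, Complex.normSq_eq_norm_sq]
      push_cast
      rfl
    rw [h3, Nat.card_eq_fintype_card] at h2
    have h4 : ((Fintype.card G : ℝ) : ℂ) ≠ 0 := by exact_mod_cast hGpos.ne'
    have h5 : ((∑ g : G, ‖χ g‖ ^ 2 : ℝ) : ℂ) = ((Fintype.card G : ℝ) : ℂ) := by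
      have h6 : ((Fintype.card G : ℕ) : ℂ) = ((Fintype.card G : ℝ) : ℂ) := by push_cast; rfl
      rw [h6] at h2
      field_simp at h2
      exact h2
    exact_mod_cast h5
  -- (b)
  have hb : ∀ l : St, ∀ g, rg l.1 g * ‖χ g‖ ^ 2 = ‖χ g‖ ^ 2 := by
    intro l g
    rcases Int.units_eq_one_or (l.1 g) with h | h
    · simp [rg, h]
    · have h1 := hSt l.1 l.2 g
      have h2 : sg l.1 g = -1 := by simp [sg, h]
      rw [h2] at h1
      have h3 : χ g = 0 := by
        have : (2 : ℂ) * χ g = 0 := by linear_combination -h1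
        simpa using this
      simp [h3]
  -- (d)
  have hd : ∀ g, 0 ≤ ∑ l : St, rg l.1 g := by
    intro g
    by_cases hall : ∀ l : St, l.1 g = 1
    · apply Finset.sum_nonneg
      intro l _
      simp [rg, hall l]
    · push Not at hall
      obtain ⟨m, hm⟩ := hall
      have h1 : m.1 g = -1 := (Int.units_eq_one_or (m.1 g)).resolve_left hm
      have h2 : ∑ l : St, rg l.1 g = ∑ l : St, rg (m * l).1 g :=
        (Equiv.sum_comp (Equiv.mulLeft m) (fun l : St => rg l.1 g)).symm
      have h3 : ∑ l : St, rg (m * l).1 g = - ∑ l : St, rg l.1 g := by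
        rw [← Finset.sum_neg_distrib]
        apply Finset.sum_congr rfl
        intro l _
        rw [Subgroup.coe_mul, rg_mul_hom]
        have : rg m.1 g = -1 := by simp [rg, h1]
        rw [this]; ring
      linarith
  -- (e)
  have he : ∑ g : G, (∑ l : St, rg l.1 g) * ‖χ g‖ ^ 2 = (Fintype.card St : ℝ) * Fintype.card G := by
    simp_rw [Finset.sum_mul]
    rw [Finset.sum_comm]
    simp_rw [hb, ha]
    simp
  -- (f)
  have hf : ∑ g : G, (∑ l : St, rg l.1 g) * n ^ 2 = (Fintype.card G : ℝ) * n ^ 2 := by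
    rw [← Finset.sum_mul, Finset.sum_comm]
    congr 1
    simp_rw [sum_rg]
    have : ∀ l : St, (if l.1 = 1 then (Fintype.card G : ℝ) else 0)
        = if l = 1 then (Fintype.card G : ℝ) else 0 := by
      intro l
      congr 1
      exact propext ⟨fun h => Subtype.ext h, fun h => by rw [h]; rfl⟩
    simp_rw [this]
    simp
  have hle : ∑ g : G, (∑ l : St, rg l.1 g) * ‖χ g‖ ^ 2 ≤ ∑ g : G, (∑ l : St, rg l.1 g) * n ^ 2 := by
    apply Finset.sum_le_sum
    intro g _
    apply mul_le_mul_of_nonneg_left _ (hd g)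
    exact pow_le_pow_left₀ (norm_nonneg _) (hn g) 2
  rw [he, hf] at hle
  rw [Nat.card_eq_fintype_card]
  nlinarith

end Cfsg.Agent.Lib.Helper21
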